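import Mathlib

/-! A sharp bound for the number of sequences of polynomials indexing the conjugacy classes of `GL_n(q)`. -/

set_option autoImplicit false

namespace Cfsg.Agent.Lib.GLCount

open Finset

/-- The number of monic polynomials of degree `d` with non-zero constant term. -/
def aa (q : ℕ) : ℕ → ℕ
  | 0 => 1
  | d + 1 => (q - 1) * q ^ d

/-- The number of `J`-tuples of such polynomials of total weight `m`. -/
def NN (q : ℕ) : ℕ → ℕ → ℕ
  | 0, m => if m = 0 then 1 else 0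
  | J + 1, m => ∑ d ∈ range (m / (J + 1) + 1), aa q d * NN q J (m - (J + 1) * d)

theorem NN_zero (q J : ℕ) : NN q J 0 = 1 := by
  induction J with
  | zero => simp [NN]
  | succ J ih => simp [NN, aa, ih]

theorem pow_id {q : ℚ} (hq : q ≠ 0) (J m d : ℕ) (h : (J + 1) * d ≤ m) :
    q ^ d * q ^ (m - (J + 1) * d) = q ^ m * (q⁻¹ ^ J) ^ d := by
  obtain ⟨k, rfl⟩ := Nat.exists_eq_add_of_le h
  rw [Nat.add_sub_cancel_left, ← pow_mul]
  have h1 : q ^ ((J + 1) * d + k) = q ^ d * q ^ k * q ^ (J * d) := by ring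
  rw [h1, inv_pow]
  have h2 : q ^ (J * d) ≠ 0 := pow_ne_zero _ hq
  field_simp

theorem aa_succ_cast (q d : ℕ) (hq : 2 ≤ q) :
    (aa q (d + 1) : ℚ) = (q : ℚ) ^ (d + 1) * (1 - (q : ℚ)⁻¹) := by
  have h0 : (q : ℚ) ≠ 0 := by positivity
  simp only [aa]
  rw [Nat.cast_mul, Nat.cast_sub (by omega), Nat.cast_pow]
  field_simp
  push_cast
  ring

theorem NN_le (q : ℕ) (hq : 2 ≤ q) (J : ℕ) :
    ∀ m : ℕ, 1 ≤ m → (NN q J m : ℚ) ≤ (q : ℚ) ^ m * (1 - (q : ℚ)⁻¹ ^ J) := by
  have h0 : (q : ℚ) ≠ 0 := by positivity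
  have hqpos : (0 : ℚ) < q := by positivity
  have hx1 : (q : ℚ)⁻¹ ≤ 1 := by
    apply inv_le_one_of_one_le₀
    exact_mod_cast (by omega : 1 ≤ q)
  have hx0 : (0 : ℚ) ≤ (q : ℚ)⁻¹ := by positivity
  induction J with
  | zero =>
    intro m hm
    have : NN q 0 m = 0 := by simp [NN]; omega
    simp [this]
  | succ J ih =>
    intro m hm
    set x : ℚ := (q : ℚ)⁻¹ with hx
    set y : ℚ := x ^ J with hy
    have hy0 : 0 ≤ y := pow_nonneg hx0 _
    have hterm : ∀ d : ℕ, (J + 1) * (d + 1) < m →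
        (aa q (d + 1) : ℚ) * NN q J (m - (J + 1) * (d + 1)) ≤
          (q : ℚ) ^ m * (1 - x) * (y ^ (d + 1) - y ^ (d + 2)) := by
      intro d hd
      have h1 := ih (m - (J + 1) * (d + 1)) (by omega)
      have h2 : (0 : ℚ) ≤ aa q (d + 1) := by positivity
      calc (aa q (d + 1) : ℚ) * NN q J (m - (J + 1) * (d + 1))
          ≤ (aa q (d + 1) : ℚ) * ((q : ℚ) ^ (m - (J + 1) * (d + 1)) * (1 - y)) :=
            mul_le_mul_of_nonneg_left h1 h2
        _ = ((q : ℚ) ^ (d + 1) * (q : ℚ) ^ (m - (J + 1) * (d + 1))) * ((1 - x) * (1 - y)) := by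
            rw [aa_succ_cast q d hq]; ring
        _ = (q : ℚ) ^ m * (1 - x) * (y ^ (d + 1) - y ^ (d + 2)) := by
            rw [pow_id h0 J m (d + 1) hd.le]; ring
    have hpart : ∀ D : ℕ, (J + 1) * D < m →
        ∑ d ∈ range D, (aa q (d + 1) : ℚ) * NN q J (m - (J + 1) * (d + 1)) ≤
          (q : ℚ) ^ m * (1 - x) * (y - y ^ (D + 1)) := by
      intro D
      induction D with
      | zero => intro _; simp
      | succ D ihD =>
        intro hD
        rw [sum_range_succ]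
        have h1 := ihD (by nlinarith)
        have h2 := hterm D hD
        calc _ ≤ (q : ℚ) ^ m * (1 - x) * (y - y ^ (D + 1)) +
              (q : ℚ) ^ m * (1 - x) * (y ^ (D + 1) - y ^ (D + 2)) := add_le_add h1 h2
          _ = _ := by ring
    have hcoef : (0 : ℚ) ≤ (q : ℚ) ^ m * (1 - x) :=
      mul_nonneg (by positivity) (by linarith)
    have hD : (J + 1) * (m / (J + 1)) ≤ m := Nat.mul_div_le m (J + 1)
    have hrest : ∑ d ∈ range (m / (J + 1)), (aa q (d + 1) : ℚ) * NN q J (m - (J + 1) * (d + 1)) ≤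
        (q : ℚ) ^ m * (1 - x) * y := by
      rcases lt_or_eq_of_le hD with hlt | heq
      · have h1 := hpart _ hlt
        have h2 : 0 ≤ y ^ (m / (J + 1) + 1) := pow_nonneg hy0 _
        calc _ ≤ (q : ℚ) ^ m * (1 - x) * (y - y ^ (m / (J + 1) + 1)) := h1
          _ ≤ _ := mul_le_mul_of_nonneg_left (by linarith) hcoef
      · have hDpos : m / (J + 1) ≠ 0 := by
          intro h
          rw [h] at heq
          omega
        obtain ⟨D₀, hD₀⟩ := Nat.exists_eq_succ_of_ne_zero hDpos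
        rw [hD₀, sum_range_succ]
        rw [hD₀] at heq
        have h1 := hpart D₀ (by
          have : (J + 1) * (D₀ + 1) = (J + 1) * D₀ + (J + 1) := by ring
          simp only [Nat.succ_eq_add_one] at heq
          omega)
        simp only [Nat.succ_eq_add_one] at heq
        have h2 : m - (J + 1) * (D₀ + 1) = 0 := by omega
        rw [h2, NN_zero, aa_succ_cast q D₀ hq]
        have h3 := pow_id h0 J m (D₀ + 1) heq.le
        rw [h2, pow_zero, mul_one] at h3
        have h4 : (q : ℚ) ^ (D₀ + 1) = (q : ℚ) ^ m * y ^ (D₀ + 1) := h3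
        rw [Nat.cast_one, mul_one, h4]
        calc _ ≤ (q : ℚ) ^ m * (1 - x) * (y - y ^ (D₀ + 1)) + (q : ℚ) ^ m * y ^ (D₀ + 1) * (1 - x) :=
              add_le_add h1 le_rfl
          _ = _ := by ring
    simp only [NN]
    rw [sum_range_succ', Nat.cast_add, Nat.cast_sum]
    have h1 := ih m hm
    have h2 : (aa q 0 : ℚ) = 1 := by simp [aa]
    simp only [Nat.mul_zero, Nat.sub_zero, Nat.cast_mul]
    rw [h2, one_mul]
    calc _ ≤ (q : ℚ) ^ m * (1 - x) * y + (q : ℚ) ^ m * (1 - y) := add_le_add hrest h1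
      _ = _ := by rw [pow_succ, ← hy]; ring

theorem NN_self_le (q : ℕ) (hq : 2 ≤ q) (n : ℕ) (hn : 1 ≤ n) : NN q n n ≤ q ^ n := by
  have h1 := NN_le q hq n n hn
  have hx0 : (0 : ℚ) ≤ (q : ℚ)⁻¹ := by positivity
  have h2 : (0 : ℚ) ≤ (q : ℚ)⁻¹ ^ n := pow_nonneg hx0 _
  have h3 : (NN q n n : ℚ) ≤ (q : ℚ) ^ n := by
    calc _ ≤ (q : ℚ) ^ n * (1 - (q : ℚ)⁻¹ ^ n) := h1
      _ ≤ (q : ℚ) ^ n * 1 := mul_le_mul_of_nonneg_left (by linarith) (by positivity)
      _ = _ := mul_one _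
  exact_mod_cast h3

end Cfsg.Agent.Lib.GLCount
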