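import Mathlib
import Cfsg.Agent.Lib.GLCount.Arith

/-! Counting monic polynomials with non-zero constant term and sequences of them. -/

set_option autoImplicit false

namespace Cfsg.Agent.Lib.GLCount

open Polynomial Finset

variable (F : Type*) [Field F] [Fintype F]

/-- Monic polynomials of degree `d` with non-zero constant term. -/
def Mon (d : ℕ) : Set F[X] := {f | f.Monic ∧ f.natDegree = d ∧ f.coeff 0 ≠ 0}

variable {F}

/-- The monic polynomial of degree `d` with the given lower coefficients. -/
noncomputable def toP (d : ℕ) (c : Fin d → F) : F[X] := X ^ d + ∑ i : Fin d, C (c i) * X ^ (i : ℕ)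

theorem toP_monic (d : ℕ) (c : Fin d → F) : (toP d c).Monic :=
  monic_X_pow_add (degree_sum_fin_lt c)

theorem toP_natDegree (d : ℕ) (c : Fin d → F) : (toP d c).natDegree = d :=
  natDegree_eq_of_degree_eq_some (by
    rw [toP, degree_add_eq_left_of_degree_lt]
    · simp
    · rw [degree_X_pow]
      exact degree_sum_fin_lt c)

theorem toP_coeff (d : ℕ) (c : Fin d → F) (i : Fin d) : (toP d c).coeff i = c i := by
  classical
  simp only [toP, coeff_add, coeff_X_pow, finset_sum_coeff, coeff_C_mul, mul_ite, mul_one, mul_zero]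
  rw [if_neg (ne_of_lt i.2)]
  rw [zero_add, Finset.sum_eq_single i]
  · simp
  · intro b _ hb
    rw [if_neg]
    intro h
    exact hb (Fin.ext h.symm)
  · intro h
    exact absurd (Finset.mem_univ i) h

theorem eq_toP {d : ℕ} {f : F[X]} (hm : f.Monic) (hd : f.natDegree = d) :
    f = toP d (fun i => f.coeff i) := by
  ext k
  rcases lt_trichotomy k d with h | h | h
  · exact (toP_coeff d (fun i => f.coeff i) ⟨k, h⟩).symm
  · subst h
    have h1 : (toP k (fun i : Fin k => f.coeff i)).coeff k = 1 := by
      have := (toP_monic k (fun i : Fin k => f.coeff i)).coeff_natDegree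
      rwa [toP_natDegree] at this
    rw [h1, ← hd]
    exact hm.coeff_natDegree
  · rw [coeff_eq_zero_of_natDegree_lt (by omega), coeff_eq_zero_of_natDegree_lt (by rw [toP_natDegree]; exact h)]

theorem toP_injective (d : ℕ) : Function.Injective (toP (F := F) d) := by
  intro c c' h
  funext i
  rw [← toP_coeff d c i, ← toP_coeff d c' i, h]

variable (F)

theorem mon_subset (d : ℕ) : Mon F d ⊆ Set.range (toP (F := F) d) := by
  intro f hf
  exact ⟨_, (eq_toP hf.1 hf.2.1).symm⟩

theorem mon_finite (d : ℕ) : (Mon F d).Finite :=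
  (Set.finite_range _).subset (mon_subset F d)

theorem mon_zero_ncard : (Mon F 0).ncard = 1 := by
  have : Mon F 0 = {1} := by
    ext f
    simp only [Mon, Set.mem_setOf_eq, Set.mem_singleton_iff]
    constructor
    · rintro ⟨hm, hd, -⟩
      exact eq_one_of_monic_natDegree_zero hm hd
    · rintro rfl
      simp
  rw [this, Set.ncard_singleton]

theorem mon_succ_ncard (d : ℕ) : (Mon F (d + 1)).ncard = (Fintype.card F - 1) * Fintype.card F ^ d := by
  classical
  have himg : Mon F (d + 1) = (fun p : {a : F // a ≠ 0} × (Fin d → F) =>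
      toP (d + 1) (Fin.cons (p.1 : F) p.2)) '' Set.univ := by
    ext f
    simp only [Mon, Set.mem_setOf_eq, Set.image_univ, Set.mem_range, Prod.exists, Subtype.exists]
    constructor
    · rintro ⟨hm, hd, h0⟩
      refine ⟨f.coeff 0, h0, fun i => f.coeff ((i : ℕ) + 1), ?_⟩
      rw [eq_toP hm hd]
      congr 1
      funext i
      refine Fin.cases ?_ (fun j => ?_) i
      · simp [toP_coeff]
        exact (toP_coeff (d + 1) (fun i : Fin (d + 1) => f.coeff i) 0).symm ▸ rfl
      · simp
        exact (congrArg (fun g : F[X] => g.coeff ((j : ℕ) + 1)) (eq_toP hm hd)).symm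
    · rintro ⟨a, ha, c, rfl⟩
      refine ⟨toP_monic _ _, toP_natDegree _ _, ?_⟩
      have := toP_coeff (d + 1) (Fin.cons a c : Fin (d + 1) → F) 0
      simp only [Fin.val_zero, Fin.cons_zero] at this
      rw [this]
      exact ha
  rw [himg, Set.ncard_image_of_injective]
  · rw [Set.ncard_univ, Nat.card_prod, Nat.card_eq_fintype_card, Nat.card_eq_fintype_card,
      Fintype.card_fun, Fintype.card_fin, Fintype.card_subtype_compl]
    simp
  · intro p p' h
    have h1 := toP_injective (d + 1) h
    have h2 : (Fin.cons (p.1 : F) p.2 : Fin (d + 1) → F) = Fin.cons (p'.1 : F) p'.2 := h1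
    have h3 := Fin.cons_injective2 h2
    exact Prod.ext (Subtype.ext h3.1) h3.2

theorem mon_ncard (d : ℕ) : (Mon F d).ncard = aa (Fintype.card F) d := by
  cases d with
  | zero => simpa [aa] using mon_zero_ncard F
  | succ d => simpa [aa] using mon_succ_ncard F d

/-- The `J`-tuples `g` of such polynomials with `∑ (i + 1) deg g i = m`. -/
def Seq (J m : ℕ) : Set (Fin J → F[X]) :=
  {g | (∀ i, g i ∈ Mon F (g i).natDegree) ∧ ∑ i : Fin J, ((i : ℕ) + 1) * (g i).natDegree = m}

theorem seq_bound (J : ℕ) : ∀ m : ℕ, (Seq F J m).Finite ∧ (Seq F J m).ncard ≤ NN (Fintype.card F) J m := by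
  classical
  induction J with
  | zero =>
    intro m
    refine ⟨Set.toFinite _, ?_⟩
    by_cases hm : m = 0
    · subst hm
      simp only [NN, if_true]
      exact (Set.ncard_le_one_iff_subsingleton.2 (Set.subsingleton_of_subsingleton))
    · have : Seq F 0 m = ∅ := by
        ext g
        simp only [Seq, Set.mem_setOf_eq, Set.mem_empty_iff_false, iff_false]
        rintro ⟨-, h⟩
        simp at h
        exact hm h.symm
      simp [this]
  | succ J ih =>
    intro m
    let A : ℕ → Finset F[X] := fun d => (mon_finite F d).toFinset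
    let B : ℕ → Finset (Fin J → F[X]) := fun d => (ih (m - (J + 1) * d)).1.toFinset
    let U : Finset (Fin (J + 1) → F[X]) := (range (m / (J + 1) + 1)).biUnion (fun d =>
      (A d ×ˢ B d).image (fun p => (Fin.snoc (α := fun _ => F[X]) p.2 p.1)))
    have hsub : Seq F (J + 1) m ⊆ (U : Set _) := by
      intro g hg
      obtain ⟨h1, h2⟩ := hg
      rw [Fin.sum_univ_castSucc] at h2
      simp only [Fin.val_castSucc, Fin.val_last] at h2
      set d := (g (Fin.last J)).natDegree with hd
      have hdm : (J + 1) * d ≤ m := by omega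
      simp only [U, Finset.coe_biUnion, Set.mem_iUnion, Finset.mem_coe, Finset.mem_image, Finset.mem_product, exists_prop]
      refine ⟨d, ?_, (g (Fin.last J), fun i => g (Fin.castSucc i)), ⟨?_, ?_⟩, ?_⟩
      · rw [Finset.mem_range, Nat.lt_succ_iff, Nat.le_div_iff_mul_le (by omega)]
        rwa [mul_comm]
      · simp only [A, Set.Finite.mem_toFinset]
        exact h1 _
      · simp only [B, Set.Finite.mem_toFinset]
        refine ⟨fun i => h1 _, ?_⟩
        exact Nat.eq_sub_of_add_eq h2
      · exact Fin.snoc_init_self (α := fun _ => F[X]) g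
    have hfin : (Seq F (J + 1) m).Finite := U.finite_toSet.subset hsub
    refine ⟨hfin, ?_⟩
    have h1 : (Seq F (J + 1) m).ncard ≤ U.card := by
      rw [← Set.ncard_coe_finset]
      exact Set.ncard_le_ncard hsub U.finite_toSet
    refine h1.trans ?_
    simp only [NN]
    refine (Finset.card_biUnion_le).trans ?_
    apply Finset.sum_le_sum
    intro d _
    refine (Finset.card_image_le).trans ?_
    rw [Finset.card_product]
    have hA : (A d).card = aa (Fintype.card F) d := by
      rw [← mon_ncard, Set.ncard_eq_toFinset_card _ (mon_finite F d)]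
    have hB : (B d).card ≤ NN (Fintype.card F) J (m - (J + 1) * d) := by
      have h3 := (ih (m - (J + 1) * d)).2
      rwa [Set.ncard_eq_toFinset_card _ (ih (m - (J + 1) * d)).1] at h3
    rw [hA]
    exact Nat.mul_le_mul_left _ hB

end Cfsg.Agent.Lib.GLCount
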