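import Mathlib
import Cfsg.Agent.Lib.GLCount.Seq

/-! The primary decomposition of `F[X]`-modules attached to an invertible matrix: the data of
the cyclic summands is recorded by a sequence of polynomials, and it determines the matrix up to
conjugacy. -/

set_option autoImplicit false

namespace Cfsg.Agent.Lib.GLCount

universe u

open Polynomial Module DirectSum Finset

variable {F : Type u} [Field F]

/-- The cyclic module of a pair `(r, e)`. -/
abbrev Qt (w : F[X] × ℕ) : Type u := F[X] ⧸ (Submodule.span F[X] {w.1 ^ w.2} : Submodule F[X] F[X])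

/-- A decomposition datum for an endomorphism. -/
def IsDat {V : Type*} [AddCommGroup V] [Module F V] (T : V →ₗ[F] V) {I : Type u} [Fintype I]
    (w : I → F[X] × ℕ) : Prop :=
  (∀ i, Irreducible (w i).1 ∧ (w i).1.Monic ∧ (w i).2 ≠ 0) ∧
    Nonempty (AEval' T ≃ₗ[F[X]] ∀ i, Qt (w i))

theorem exists_dat {V : Type*} [AddCommGroup V] [Module F V] [FiniteDimensional F V] (T : V →ₗ[F] V) :
    ∃ (I : Type u) (_ : Fintype I) (w : I → F[X] × ℕ), IsDat T w := by
  classical
  have htors : Module.IsTorsion F[X] (Module.AEval' T) := Module.AEval.isTorsion_of_finiteDimensional F V T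
  obtain ⟨I, _, p, hp, e, ⟨Φ⟩⟩ := Module.equiv_directSum_of_isTorsion htors
  let J := {i : I // e i ≠ 0}
  let w : J → F[X] × ℕ := fun i => (normalize (p i.1), e i.1)
  have hspan : ∀ i : I, (Submodule.span F[X] {p i ^ e i} : Submodule F[X] F[X]) =
      Submodule.span F[X] {normalize (p i) ^ e i} := by
    intro i
    have h1 : Associated (p i ^ e i) (normalize (p i) ^ e i) :=
      (associated_normalize (p i)).pow_pow
    exact Ideal.span_singleton_eq_span_singleton.2 h1
  have hQ : ∀ i : I, (F[X] ⧸ (Submodule.span F[X] {p i ^ e i} : Submodule F[X] F[X])) ≃ₗ[F[X]]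
      (F[X] ⧸ (Submodule.span F[X] {normalize (p i) ^ e i} : Submodule F[X] F[X])) := fun i =>
    Submodule.quotEquivOfEq _ _ (hspan i)
  let Q : I → Type u := fun i => F[X] ⧸ (Submodule.span F[X] {p i ^ e i} : Submodule F[X] F[X])
  have hsub : ∀ i : I, e i = 0 → Subsingleton (Q i) := by
    intro i hi
    have h1 : (Submodule.span F[X] {p i ^ e i} : Submodule F[X] F[X]) = ⊤ := by
      rw [hi, pow_zero]
      exact Ideal.span_singleton_one
    show Subsingleton (F[X] ⧸ (Submodule.span F[X] {p i ^ e i} : Submodule F[X] F[X]))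
    rw [h1]
    infer_instance
  let R₁ : (∀ i, Q i) →ₗ[F[X]] (∀ j : J, Q j.1) := LinearMap.pi (fun j => LinearMap.proj j.1)
  have hR₁ : Function.Bijective R₁ := by
    constructor
    · intro x y hxy
      funext i
      by_cases hi : e i = 0
      · haveI := hsub i hi
        exact Subsingleton.elim _ _
      · exact congrFun hxy ⟨i, hi⟩
    · intro y
      refine ⟨fun i => if hi : e i = 0 then 0 else y ⟨i, hi⟩, ?_⟩
      funext j
      show (if hi : e j.1 = 0 then 0 else y ⟨j.1, hi⟩) = y j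
      rw [dif_neg j.2]
  refine ⟨J, inferInstance, w, ?_, ?_⟩
  · intro i
    refine ⟨?_, ?_, i.2⟩
    · exact (associated_normalize (p i.1)).irreducible (hp i.1)
    · exact Polynomial.monic_normalize (hp i.1).ne_zero
  · refine ⟨Φ ≪≫ₗ (DirectSum.linearEquivFunOnFintype F[X] I Q) ≪≫ₗ (LinearEquiv.ofBijective R₁ hR₁) ≪≫ₗ
      (LinearEquiv.piCongrRight (fun j => hQ j.1))⟩

theorem qt_finite (w : F[X] × ℕ) (hw : w.1.Monic) : Module.Finite F (Qt w) := by
  have h1 : (w.1 ^ w.2).Monic := hw.pow _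
  exact (h1.finite_quotient : Module.Finite F (F[X] ⧸ (Ideal.span {w.1 ^ w.2} : Ideal F[X])))

theorem qt_finrank (w : F[X] × ℕ) : Module.finrank F (Qt w) = w.2 * w.1.natDegree := by
  have h1 : Module.finrank F (F[X] ⧸ (Ideal.span {w.1 ^ w.2} : Ideal F[X])) = (w.1 ^ w.2).natDegree :=
    finrank_quotient_span_eq_natDegree
  rw [natDegree_pow] at h1
  exact h1

section
variable {V : Type*} [AddCommGroup V] [Module F V] [FiniteDimensional F V] (T : V →ₗ[F] V)
  {I : Type u} [Fintype I] {w : I → F[X] × ℕ}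

theorem dat_sum (hw : IsDat T w) : ∑ i, (w i).2 * (w i).1.natDegree = Module.finrank F V := by
  obtain ⟨h1, ⟨Φ⟩⟩ := hw
  haveI : ∀ i, Module.Finite F (Qt (w i)) := fun i => qt_finite _ (h1 i).2.1
  have h2 := (((AEval'.of T).trans (Φ.restrictScalars F))).finrank_eq
  rw [h2, Module.finrank_pi_fintype]
  exact Finset.sum_congr rfl (fun i _ => (qt_finrank _).symm)

theorem dat_coeff (hw : IsDat T w) (hT : Function.Injective T) (i : I) : (w i).1.coeff 0 ≠ 0 := by
  classical
  obtain ⟨h1, ⟨Φ⟩⟩ := hw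
  intro h0
  obtain ⟨s, hs⟩ := Polynomial.X_dvd_iff.2 h0
  obtain ⟨hirr, hmon, hpos⟩ := h1 i
  set r := (w i).1 with hr
  set e := (w i).2 with he
  obtain ⟨e', he'⟩ := Nat.exists_eq_succ_of_ne_zero hpos
  let c : F[X] := r ^ e' * s
  have hc : r ^ e = X * c := by
    rw [he', pow_succ]
    simp only [c]
    nth_rewrite 2 [hs]
    ring
  have hmonic : (r ^ e).Monic := hmon.pow _
  have hc0 : c ≠ 0 := by
    intro h
    rw [h, mul_zero] at hc
    exact hmonic.ne_zero hc
  let y0 : Qt (w i) := Submodule.Quotient.mk c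
  have hy0 : y0 ≠ 0 := by
    intro h
    have h2 : c ∈ (Submodule.span F[X] {r ^ e} : Submodule F[X] F[X]) :=
      (Submodule.Quotient.mk_eq_zero _).1 h
    obtain ⟨a, ha⟩ := Submodule.mem_span_singleton.1 h2
    have h3 : r ^ e ∣ c := ⟨a, by rw [← ha, smul_eq_mul]; ring⟩
    have h4 := Polynomial.natDegree_le_of_dvd h3 hc0
    rw [hc, natDegree_X_mul hc0] at h4
    omega
  have hXy : (X : F[X]) • y0 = 0 := by
    show (Submodule.Quotient.mk (X • c) : Qt (w i)) = 0
    apply (Submodule.Quotient.mk_eq_zero _).2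
    rw [smul_eq_mul, ← hc]
    exact Submodule.mem_span_singleton_self _
  let y : ∀ j, Qt (w j) := Pi.single i y0
  have hy : y ≠ 0 := by
    intro h
    apply hy0
    have := congrFun h i
    simpa [y] using this
  have hXy' : (X : F[X]) • y = 0 := by
    funext j
    by_cases hj : j = i
    · subst hj
      simp only [y, Pi.smul_apply, Pi.single_eq_same, hXy, Pi.zero_apply]
    · simp only [y, Pi.smul_apply, Pi.single_eq_of_ne hj, smul_zero, Pi.zero_apply]
  let v : V := (AEval'.of T).symm (Φ.symm y)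
  have hv : AEval'.of T v = Φ.symm y := by simp [v]
  have hTv : T v = 0 := by
    have h5 : AEval'.of T (T v) = (X : F[X]) • AEval'.of T v := (AEval'.X_smul_of T v).symm
    rw [hv, ← map_smul, hXy', map_zero] at h5
    exact (AEval'.of T).injective (h5.trans (map_zero _).symm)
  have hv0 : v = 0 := hT (hTv.trans (map_zero T).symm)
  apply hy
  have h6 : Φ.symm y = 0 := by rw [← hv, hv0, map_zero]
  exact Φ.symm.injective (h6.trans (map_zero _).symm)

end

/-- The polynomial sequence of a decomposition datum. -/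
noncomputable def seqOf {I : Type u} [Fintype I] (w : I → F[X] × ℕ) (n : ℕ) (j : Fin n) : F[X] :=
  by classical exact ∏ i ∈ Finset.univ.filter (fun i => (w i).2 = (j : ℕ) + 1), (w i).1

theorem seqOf_eq {I : Type u} [Fintype I] (w : I → F[X] × ℕ) (n : ℕ) (j : Fin n) [DecidablePred fun i => (w i).2 = (j : ℕ) + 1] :
    seqOf w n j = ∏ i ∈ Finset.univ.filter (fun i => (w i).2 = (j : ℕ) + 1), (w i).1 := by
  unfold seqOf
  congr!

section
variable {I : Type u} [Fintype I] {w : I → F[X] × ℕ} {n : ℕ}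

theorem two_le_bound (hi : ∀ i, Irreducible (w i).1 ∧ (w i).1.Monic ∧ (w i).2 ≠ 0)
    (hn : ∑ i, (w i).2 * (w i).1.natDegree = n) (i : I) : (w i).2 ≤ n := by
  have h1 : (w i).2 * (w i).1.natDegree ≤ ∑ i, (w i).2 * (w i).1.natDegree :=
    Finset.single_le_sum (f := fun i => (w i).2 * (w i).1.natDegree) (fun _ _ => Nat.zero_le _) (Finset.mem_univ i)
  have h2 : 0 < (w i).1.natDegree := (hi i).1.natDegree_pos
  rw [hn] at h1
  calc (w i).2 = (w i).2 * 1 := (mul_one _).symm
    _ ≤ (w i).2 * (w i).1.natDegree := Nat.mul_le_mul_left _ h2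
    _ ≤ n := h1

theorem seqOf_mem (hi : ∀ i, Irreducible (w i).1 ∧ (w i).1.Monic ∧ (w i).2 ≠ 0)
    (hc : ∀ i, (w i).1.coeff 0 ≠ 0)
    (hn : ∑ i, (w i).2 * (w i).1.natDegree = n) [Fintype F] : seqOf w n ∈ Seq F n n := by
  classical
  have hbd := two_le_bound hi hn
  have hdeg : ∀ j : Fin n, (seqOf w n j).natDegree =
      ∑ i ∈ Finset.univ.filter (fun i => (w i).2 = (j : ℕ) + 1), (w i).1.natDegree := by
    intro j
    rw [seqOf_eq, Polynomial.natDegree_prod_of_monic _ _ (fun i _ => (hi i).2.1)]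
  constructor
  · intro j
    refine ⟨?_, rfl, ?_⟩
    · rw [seqOf_eq]
      exact Polynomial.monic_prod_of_monic _ _ (fun i _ => (hi i).2.1)
    · rw [seqOf_eq, Polynomial.coeff_zero_eq_eval_zero, Polynomial.eval_prod, Finset.prod_ne_zero_iff]
      intro i _
      rw [← Polynomial.coeff_zero_eq_eval_zero]
      exact hc i
  · let φ : I → Fin n := fun i => ⟨(w i).2 - 1, by
      have h1 := hbd i
      have h2 := (hi i).2.2
      omega⟩
    have hφ : ∀ (j : Fin n) (i : I), φ i = j ↔ (w i).2 = (j : ℕ) + 1 := by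
      intro j i
      have h2 := (hi i).2.2
      constructor
      · intro h
        have := congrArg Fin.val h
        simp only [φ] at this
        omega
      · intro h
        apply Fin.ext
        simp only [φ]
        omega
    refine Eq.trans ?_ hn
    rw [← Finset.sum_fiberwise (s := Finset.univ) (g := φ) (f := fun i => (w i).2 * (w i).1.natDegree)]
    apply Finset.sum_congr rfl
    intro j _
    rw [hdeg, Finset.mul_sum]
    have hfil : Finset.univ.filter (fun i => φ i = j) = Finset.univ.filter (fun i => (w i).2 = (j : ℕ) + 1) := by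
      ext i
      simp [hφ]
    rw [hfil]
    apply Finset.sum_congr rfl
    intro i hi'
    rw [(Finset.mem_filter.1 hi').2]

end

section
variable {I I' : Type u} [Fintype I] [Fintype I'] {w : I → F[X] × ℕ} {w' : I' → F[X] × ℕ} {n : ℕ}

theorem fiber_card (hi : ∀ i, Irreducible (w i).1 ∧ (w i).1.Monic ∧ (w i).2 ≠ 0)
    (hi' : ∀ i, Irreducible (w' i).1 ∧ (w' i).1.Monic ∧ (w' i).2 ≠ 0)
    (hb : ∀ i, (w i).2 ≤ n) (hb' : ∀ i, (w' i).2 ≤ n) (hs : seqOf w n = seqOf w' n) (z : F[X] × ℕ) :
    Nat.card {i // w i = z} = Nat.card {i // w' i = z} := by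
  classical
  obtain ⟨r, k⟩ := z
  by_cases hk : k = 0 ∨ n < k
  · have h1 : IsEmpty {i // w i = (r, k)} := ⟨fun ⟨i, h⟩ => by
      have h2 := congrArg Prod.snd h
      simp only at h2
      have := hb i
      have := (hi i).2.2
      omega⟩
    have h1' : IsEmpty {i // w' i = (r, k)} := ⟨fun ⟨i, h⟩ => by
      have h2 := congrArg Prod.snd h
      simp only at h2
      have := hb' i
      have := (hi' i).2.2
      omega⟩
    simp
  · push Not at hk
    obtain ⟨j, hj⟩ : ∃ j : Fin n, k = (j : ℕ) + 1 := ⟨⟨k - 1, by omega⟩, by simp; omega⟩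
    have key : ∀ {K : Type u} [Fintype K] (v : K → F[X] × ℕ),
        (∀ i, Irreducible (v i).1 ∧ (v i).1.Monic ∧ (v i).2 ≠ 0) →
        Nat.card {i // v i = (r, k)} = (UniqueFactorizationMonoid.normalizedFactors (seqOf v n j)).count r := by
      intro K _ v hv
      let s : Multiset F[X] := (Finset.univ.filter (fun i => (v i).2 = (j : ℕ) + 1)).val.map (fun i => (v i).1)
      have hprod : seqOf v n j = s.prod := by
        rw [seqOf_eq]
        rfl
      have hnf : UniqueFactorizationMonoid.normalizedFactors s.prod = s.map normalize :=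
        UniqueFactorizationMonoid.normalizedFactors_prod_eq s (by
          intro a ha
          obtain ⟨i, -, rfl⟩ := Multiset.mem_map.1 ha
          exact (hv i).1)
      have hnorm : s.map normalize = s := by
        refine (Multiset.map_congr rfl (fun a ha => ?_)).trans (Multiset.map_id s)
        obtain ⟨i, -, rfl⟩ := Multiset.mem_map.1 ha
        exact (hv i).2.1.normalize_eq_self
      rw [hprod, hnf, hnorm]
      simp only [s]
      rw [Multiset.count_map, Nat.card_eq_fintype_card, Fintype.card_subtype]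
      have : (Multiset.filter (fun a => r = (v a).1) (Finset.univ.filter (fun i => (v i).2 = (j : ℕ) + 1)).val) =
          (Finset.univ.filter (fun i => v i = (r, k))).val := by
        rw [← Finset.filter_val]
        congr 1
        ext i
        simp only [Finset.mem_filter, Finset.mem_univ, true_and, Prod.ext_iff]
        rw [hj]
        constructor
        · rintro ⟨h1, h2⟩
          exact ⟨h2.symm, h1⟩
        · rintro ⟨h1, h2⟩
          exact ⟨h2, h1.symm⟩
      rw [this]
      rfl
    rw [key w hi, key w' hi', hs]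

/-- Matching of the summands. -/
theorem pi_iso (hi : ∀ i, Irreducible (w i).1 ∧ (w i).1.Monic ∧ (w i).2 ≠ 0)
    (hi' : ∀ i, Irreducible (w' i).1 ∧ (w' i).1.Monic ∧ (w' i).2 ≠ 0)
    (hb : ∀ i, (w i).2 ≤ n) (hb' : ∀ i, (w' i).2 ≤ n) (hs : seqOf w n = seqOf w' n) :
    Nonempty ((∀ i, Qt (w i)) ≃ₗ[F[X]] ∀ i, Qt (w' i)) := by
  classical
  have hc := fiber_card hi hi' hb hb' hs
  have hfib : ∀ z, Nonempty ({i // w i = z} ≃ {i // w' i = z}) := by
    intro z
    exact Finite.card_eq.1 (hc z)
  let e : ∀ z, {i // w i = z} ≃ {i // w' i = z} := fun z => (hfib z).some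
  let σ : I ≃ I' := Equiv.ofFiberEquiv e
  have hσ : ∀ i, w' (σ i) = w i := fun i => Equiv.ofFiberEquiv_map e i
  let E₁ : ∀ i, Qt (w i) ≃ₗ[F[X]] Qt (w' (σ i)) := fun i =>
    Submodule.quotEquivOfEq _ _ (by rw [hσ])
  exact ⟨(LinearEquiv.piCongrRight E₁) ≪≫ₗ (LinearEquiv.piCongrLeft F[X] (fun i' => Qt (w' i')) σ)⟩

end

section Conj

variable {n : ℕ} [Fintype F]

/-- Similar matrices from isomorphic modules. -/
theorem isConj_of_iso (a b : GL (Fin n) F)
    (E : AEval' (Matrix.toLin' (a : Matrix (Fin n) (Fin n) F)) ≃ₗ[F[X]] AEval' (Matrix.toLin' (b : Matrix (Fin n) (Fin n) F))) :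
    IsConj a b := by
  let Ta := Matrix.toLin' (a : Matrix (Fin n) (Fin n) F)
  let Tb := Matrix.toLin' (b : Matrix (Fin n) (Fin n) F)
  let L : (Fin n → F) ≃ₗ[F] (Fin n → F) :=
    (AEval'.of Ta).trans ((E.restrictScalars F).trans (AEval'.of Tb).symm)
  have hL : ∀ v, L (Ta v) = Tb (L v) := by
    intro v
    simp only [L, LinearEquiv.trans_apply]
    apply (AEval'.of Tb).injective
    rw [LinearEquiv.apply_symm_apply]
    rw [← AEval'.X_smul_of Tb, LinearEquiv.apply_symm_apply]
    rw [LinearEquiv.restrictScalars_apply, LinearEquiv.restrictScalars_apply]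
    rw [← AEval'.X_smul_of Ta, map_smul]
  let P : Matrix (Fin n) (Fin n) F := LinearMap.toMatrix' (L : (Fin n → F) →ₗ[F] (Fin n → F))
  let Q : Matrix (Fin n) (Fin n) F := LinearMap.toMatrix' (L.symm : (Fin n → F) →ₗ[F] (Fin n → F))
  have hPQ : P * Q = 1 := by
    simp only [P, Q]
    rw [← LinearMap.toMatrix'_comp]
    simp
  have hQP : Q * P = 1 := by
    simp only [P, Q]
    rw [← LinearMap.toMatrix'_comp]
    simp
  let u : GL (Fin n) F := ⟨P, Q, hPQ, hQP⟩
  have hu : u * a = b * u := by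
    apply Units.ext
    show P * (a : Matrix (Fin n) (Fin n) F) = (b : Matrix (Fin n) (Fin n) F) * P
    apply Matrix.toLin'.injective
    apply LinearMap.ext
    intro v
    rw [Matrix.toLin'_mul, Matrix.toLin'_mul, LinearMap.comp_apply, LinearMap.comp_apply]
    simp only [P, Matrix.toLin'_toMatrix']
    exact hL v
  rw [isConj_iff]
  exact ⟨u, by rw [hu, mul_inv_cancel_right]⟩

/-- Every invertible matrix has a sequence; matrices with the same sequence are conjugate. -/
theorem exists_seq_map : ∃ Ψ : GL (Fin n) F → (Fin n → F[X]),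
    (∀ a, Ψ a ∈ Seq F n n) ∧ ∀ a b, Ψ a = Ψ b → IsConj a b := by
  classical
  have hdat : ∀ a : GL (Fin n) F, ∃ (I : Type u) (_ : Fintype I) (w : I → F[X] × ℕ),
      IsDat (Matrix.toLin' (a : Matrix (Fin n) (Fin n) F)) w := fun a => exists_dat _
  choose I hI w hw using hdat
  have hn : ∀ a, ∑ i, (w a i).2 * (w a i).1.natDegree = n := by
    intro a
    have := dat_sum _ (hw a)
    rwa [Module.finrank_fin_fun] at this
  have hinj : ∀ a : GL (Fin n) F, Function.Injective (Matrix.toLin' (a : Matrix (Fin n) (Fin n) F)) := by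
    intro a x y hxy
    have h1 : Matrix.toLin' ((a⁻¹ : GL (Fin n) F) : Matrix (Fin n) (Fin n) F) * Matrix.toLin' (a : Matrix (Fin n) (Fin n) F) = 1 := by
      rw [Module.End.mul_eq_comp, ← Matrix.toLin'_mul, ← Units.val_mul, inv_mul_cancel, Units.val_one, Matrix.toLin'_one]
      rfl
    have h2 := congrArg (Matrix.toLin' ((a⁻¹ : GL (Fin n) F) : Matrix (Fin n) (Fin n) F)) hxy
    rw [← Module.End.mul_apply, ← Module.End.mul_apply, h1] at h2
    simpa using h2
  refine ⟨fun a => seqOf (w a) n, fun a => seqOf_mem (hw a).1 (dat_coeff _ (hw a) (hinj a)) (hn a), ?_⟩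
  intro a b hab
  obtain ⟨Ea⟩ := (hw a).2
  obtain ⟨Eb⟩ := (hw b).2
  obtain ⟨E⟩ := pi_iso (hw a).1 (hw b).1 (two_le_bound (hw a).1 (hn a)) (two_le_bound (hw b).1 (hn b)) hab
  exact isConj_of_iso a b (Ea ≪≫ₗ E ≪≫ₗ Eb.symm)

theorem card_conj_le (hn : 1 ≤ n) : Nat.card (ConjClasses (GL (Fin n) F)) ≤ Fintype.card F ^ n := by
  classical
  obtain ⟨Ψ, h1, h2⟩ := exists_seq_map (F := F) (n := n)
  have hq : 2 ≤ Fintype.card F := Fintype.one_lt_card
  refine le_trans ?_ (NN_self_le _ hq n hn)
  refine le_trans ?_ (seq_bound F n n).2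
  have hsurj : Function.Surjective (ConjClasses.mk : GL (Fin n) F → ConjClasses (GL (Fin n) F)) :=
    ConjClasses.mk_surjective
  let ρ := Function.surjInv hsurj
  have hρ : ∀ c, ConjClasses.mk (ρ c) = c := Function.surjInv_eq hsurj
  let f : ConjClasses (GL (Fin n) F) → (Seq F n n) := fun c => ⟨Ψ (ρ c), h1 _⟩
  have hf : Function.Injective f := by
    intro c d hcd
    have h3 : Ψ (ρ c) = Ψ (ρ d) := congrArg Subtype.val hcd
    have h4 := h2 _ _ h3
    rw [← hρ c, ← hρ d]
    exact ConjClasses.mk_eq_mk_iff_isConj.2 h4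
  haveI := (seq_bound F n n).1.to_subtype
  have h5 := Nat.card_le_card_of_injective f hf
  rwa [Nat.card_coe_set_eq] at h5

end Conj

end Cfsg.Agent.Lib.GLCount
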